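import Cfsg.Agent.Lib.Helper80.LBP.Defs

set_option autoImplicit false

/-!
# Local balance: generic lemmas (any finite group `K` with trivial centre)
-/

namespace Cfsg.Agent.Lib.Helper80.LBP

open Cfsg.Agent.Lib.Helper98

variable {K : Type*} [Group K]

/-- the criterion for an automorphism `φ` with a good subgroup `L` of fixed points. -/
theorem core_std_gen [Finite K] (hZ : Function.Injective (MulAut.conj : K →* MulAut K))
    (φ : MulAut K) (L : Subgroup K) (hfix : ∀ k ∈ L, φ k = k)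
    (hnorm : ∀ k, φ k = k → ∀ l ∈ L, k * l * k⁻¹ ∈ L) (p : ℕ)
    [hp : Fact p.Prime] (hne : L ≠ ⊥)
    (hb : p ∣ Nat.card K → ∀ M : Subgroup K, M ≤ L → (∀ l ∈ L, ∀ k ∈ M, l * k * l⁻¹ ∈ M) →
      M ≠ ⊥ → p ∣ Nat.card M)
    (hc : ∀ a : MulAut K, (∀ k ∈ L, a k = k) → a ^ p = 1)
    (A : Subgroup (MulAut K)) (hinn : ∀ k, MulAut.conj k ∈ A) :
    Cfsg.pPrimeCore p ↥(A ⊓ Subgroup.centralizer {φ}) ≠ ⊥ ↔
      Nat.Coprime p (Nat.card ↥(MonoidHom.eqLocus φ.toMonoidHom (MonoidHom.id K))) := by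
  have hpow : φ ^ p = 1 := hc _ hfix
  refine LB.localBalance hZ A hinn p φ L hfix hnorm ?_
    (fun h => hb ((dvd_card_fix_iff _ hpow).1 h)) hc
  by_contra hcon
  push Not at hcon
  apply hne
  rw [eq_bot_iff]
  intro k hk
  exact hcon k (hfix k hk)

lemma ne_bot_of_hc_gen (hZ : Function.Injective (MulAut.conj : K →* MulAut K)) [Nontrivial K]
    (L : Subgroup K) (hc : ∀ a : MulAut K, (∀ k ∈ L, a k = k) → a ^ 2 = 1) : L ≠ ⊥ := by
  intro hL
  have h1 : ∀ k : K, k * k = 1 := by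
    intro k
    have := hc (MulAut.conj k) (by
      intro l hl
      rw [hL, Subgroup.mem_bot] at hl
      rw [hl, map_one])
    rw [← map_pow, ← map_one (MulAut.conj : K →* MulAut K)] at this
    have := hZ this
    rwa [sq] at this
  have h2 : ∀ x y : K, x * y = y * x := by
    intro x y
    have e1 := h1 (x * y)
    have hx : x⁻¹ = x := inv_eq_of_mul_eq_one_left (h1 x)
    have hy : y⁻¹ = y := inv_eq_of_mul_eq_one_left (h1 y)
    have e2 : (x * y)⁻¹ = x * y := inv_eq_of_mul_eq_one_left e1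
    rw [← e2, _root_.mul_inv_rev, hx, hy]
  obtain ⟨x, hx⟩ := exists_ne (1 : K)
  apply hx
  apply hZ
  rw [map_one]
  ext y
  rw [MulAut.conj_apply, h2 x y, mul_inv_cancel_right]
  rfl

/-- the case `p = 2`. -/
theorem core_two_gen [Finite K] (hZ : Function.Injective (MulAut.conj : K →* MulAut K))
    [Nontrivial K] (φ : MulAut K) (L : Subgroup K) (hfix : ∀ k ∈ L, φ k = k)
    (hnorm : ∀ k, φ k = k → ∀ l ∈ L, k * l * k⁻¹ ∈ L)
    (hb : ∀ M : Subgroup K, M ≤ L → (∀ l ∈ L, ∀ k ∈ M, l * k * l⁻¹ ∈ M) →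
      M ≠ ⊥ → 2 ∣ Nat.card M)
    (hc : ∀ a : MulAut K, (∀ k ∈ L, a k = k) → a ^ 2 = 1)
    (A : Subgroup (MulAut K)) (hinn : ∀ k, MulAut.conj k ∈ A) :
    ¬ Cfsg.pPrimeCore 2 ↥(A ⊓ Subgroup.centralizer {φ}) ≠ ⊥ ∧
      ¬ Nat.Coprime 2 (Nat.card ↥(MonoidHom.eqLocus φ.toMonoidHom (MonoidHom.id K))) := by
  have : Fact (Nat.Prime 2) := ⟨Nat.prime_two⟩
  have hne := ne_bot_of_hc_gen hZ L hc
  have key := core_std_gen hZ φ L hfix hnorm 2 hne (fun _ => hb) hc A hinn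
  have h2 : ¬ Nat.Coprime 2
      (Nat.card ↥(MonoidHom.eqLocus φ.toMonoidHom (MonoidHom.id K))) := by
    intro hcop
    have h3 := hb L le_rfl (fun l hl k hk => L.mul_mem (L.mul_mem hl hk) (L.inv_mem hl)) hne
    have h4 : L ≤ MonoidHom.eqLocus φ.toMonoidHom (MonoidHom.id K) := fun k hk => hfix k hk
    have h5 := h3.trans (Subgroup.card_dvd_of_le h4)
    have := Nat.dvd_gcd dvd_rfl h5
    rw [hcop] at this
    omega
  exact ⟨fun h => h2 (key.1 h), h2⟩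

lemma inn_map_gen (A : Subgroup (MulAut K)) (hinn : ∀ k, MulAut.conj k ∈ A) (α : MulAut K) :
    ∀ k, MulAut.conj k ∈ A.map (MulAut.conj α).toMonoidHom := by
  intro k
  refine ⟨MulAut.conj (α⁻¹ k), hinn _, ?_⟩
  show α * MulAut.conj (α⁻¹ k) * α⁻¹ = MulAut.conj k
  rw [LB.conj_conj]
  simp

/-- fixed points modulo the centre: generic version of `LL`. -/
def LLg {S : Type*} [Group S] (θ : MulAut S) : Subgroup (S ⧸ Subgroup.center S) :=
  (MonoidHom.eqLocus θ.toMonoidHom (MonoidHom.id _)).map (QuotientGroup.mk' (Subgroup.center S))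

lemma mk_mem_LLg {S : Type*} [Group S] {θ : MulAut S} {s : S} (h : θ s = s) :
    (QuotientGroup.mk s : S ⧸ Subgroup.center S) ∈ LLg θ := ⟨s, h, rfl⟩

lemma LLg_norm {S : Type*} [Group S] (θ : MulAut S) (φ : MulAut (S ⧸ Subgroup.center S))
    (hφ : ∀ s, φ (QuotientGroup.mk s) = QuotientGroup.mk (θ s)) :
    ∀ k, φ k = k → ∀ l ∈ LLg θ, k * l * k⁻¹ ∈ LLg θ := by
  intro k hk l hl
  obtain ⟨x, hx, rfl⟩ := hl
  have hx' : θ x = x := hx
  induction k using QuotientGroup.induction_on with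
  | H s =>
    rw [hφ, QuotientGroup.eq] at hk
    refine ⟨s * x * s⁻¹, ?_, rfl⟩
    show θ (s * x * s⁻¹) = s * x * s⁻¹
    set z := (θ s)⁻¹ * s with hz
    have hs : θ s = s * z⁻¹ := by rw [hz]; group
    have hzc : ∀ y, z⁻¹ * y = y * z⁻¹ := fun y =>
      ((Subgroup.mem_center_iff.1 (Subgroup.inv_mem _ hk)) y).symm
    rw [map_mul, map_mul, map_inv, hx', hs]
    calc s * z⁻¹ * x * (s * z⁻¹)⁻¹ = s * (z⁻¹ * x) * z * s⁻¹ := by group
      _ = s * (x * z⁻¹) * z * s⁻¹ := by rw [hzc]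
      _ = s * x * s⁻¹ := by group

lemma LLg_fix {S : Type*} [Group S] (θ : MulAut S) (φ : MulAut (S ⧸ Subgroup.center S))
    (hφ : ∀ s, φ (QuotientGroup.mk s) = QuotientGroup.mk (θ s)) :
    ∀ k ∈ LLg θ, φ k = k := by
  rintro _ ⟨s, hs, rfl⟩
  have hs' : θ s = s := hs
  show φ (QuotientGroup.mk s) = QuotientGroup.mk s
  rw [hφ, hs']

end Cfsg.Agent.Lib.Helper80.LBP
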