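import Cfsg.Agent.Lib.Helper43.PA.Coset
import Cfsg.Agent.Lib.Helper44.GraphStd
import Cfsg.Agent.Lib.Helper98.LB0

set_option autoImplicit false

/-!
# Local balance for `PSL_n(F)` (row S2686): common definitions and generic lemmas
-/

namespace Cfsg.Agent.Lib.Helper80.LBP

open Matrix Cfsg.Agent.Lib.Helper43.PA

variable {n : ℕ} {F : Type*} [Field F]

/-- the image in `PSL_n` of the fixed points on `SL_n` of an automorphism `θ` of `SL_n`. -/
def LL (θ : MulAut (SpecialLinearGroup (Fin n) F)) :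
    Subgroup (ProjectiveSpecialLinearGroup (Fin n) F) :=
  (MonoidHom.eqLocus θ.toMonoidHom (MonoidHom.id _)).map
    (QuotientGroup.mk' (Subgroup.center (SpecialLinearGroup (Fin n) F)))

lemma mem_LL {θ : MulAut (SpecialLinearGroup (Fin n) F)}
    {k : ProjectiveSpecialLinearGroup (Fin n) F} :
    k ∈ LL θ ↔ ∃ s : SpecialLinearGroup (Fin n) F, θ s = s ∧ QuotientGroup.mk s = k := Iff.rfl

lemma mk_mem_LL {θ : MulAut (SpecialLinearGroup (Fin n) F)} {s : SpecialLinearGroup (Fin n) F}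
    (h : θ s = s) : (QuotientGroup.mk s : ProjectiveSpecialLinearGroup (Fin n) F) ∈ LL θ :=
  ⟨s, h, rfl⟩

lemma LL_fix (θ : MulAut (SpecialLinearGroup (Fin n) F)) :
    ∀ k ∈ LL θ, pslAut θ k = k := by
  rintro _ ⟨s, hs, rfl⟩
  have hs' : θ s = s := hs
  show pslAut θ (QuotientGroup.mk s) = QuotientGroup.mk s
  rw [pslAut_mk, hs']

lemma LL_norm (θ : MulAut (SpecialLinearGroup (Fin n) F)) :
    ∀ k, pslAut θ k = k → ∀ l ∈ LL θ, k * l * k⁻¹ ∈ LL θ := by
  intro k hk l hl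
  obtain ⟨x, hx, rfl⟩ := hl
  have hx' : θ x = x := hx
  induction k using QuotientGroup.induction_on with
  | H s =>
    rw [pslAut_mk, QuotientGroup.eq] at hk
    refine ⟨s * x * s⁻¹, ?_, rfl⟩
    show θ (s * x * s⁻¹) = s * x * s⁻¹
    set z := (θ s)⁻¹ * s with hz
    have hs : θ s = s * z⁻¹ := by rw [hz]; group
    have hzc : ∀ y, z⁻¹ * y = y * z⁻¹ := fun y =>
      ((Subgroup.mem_center_iff.1 (Subgroup.inv_mem _ hk)) y).symm
    rw [map_mul, map_mul, map_inv, hx', hs]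
    calc s * z⁻¹ * x * (s * z⁻¹)⁻¹ = s * (z⁻¹ * x) * z * s⁻¹ := by group
      _ = s * (x * z⁻¹) * z * s⁻¹ := by rw [hzc]
      _ = s * x * s⁻¹ := by group

/-- an automorphism of prime order `p`: `p ∣ |Fix|` iff `p ∣ |K|`. -/
lemma dvd_card_fix_iff {K : Type*} [Group K] [Finite K] {p : ℕ} [hp : Fact p.Prime] (β : MulAut K)
    (hβ : β ^ p = 1) :
    p ∣ Nat.card ↥(MonoidHom.eqLocus β.toMonoidHom (MonoidHom.id K)) ↔ p ∣ Nat.card K := by
  classical
  have hP : IsPGroup p (Subgroup.zpowers β) := by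
    rintro ⟨x, hx⟩
    obtain ⟨k, rfl⟩ := Subgroup.mem_zpowers_iff.1 hx
    refine ⟨1, Subtype.ext ?_⟩
    show (β ^ k) ^ p ^ 1 = 1
    rw [pow_one, ← zpow_natCast, ← _root_.zpow_mul, mul_comm, _root_.zpow_mul, zpow_natCast, hβ, _root_.one_zpow]
  have h1 := hP.card_modEq_card_fixedPoints K
  have h2 : Nat.card ↥(MonoidHom.eqLocus β.toMonoidHom (MonoidHom.id K)) =
      Nat.card (MulAction.fixedPoints (Subgroup.zpowers β) K) := by
    apply Nat.card_congr
    refine Equiv.subtypeEquivRight (fun k => ?_)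
    constructor
    · intro hk
      rintro ⟨x, hx⟩
      obtain ⟨j, rfl⟩ := Subgroup.mem_zpowers_iff.1 hx
      show (β ^ j) k = k
      have hk' : β k = k := hk
      have : k ∈ MulAction.fixedBy K β := hk'
      have h3 : β ^ j ∈ MulAction.stabilizer (MulAut K) k :=
        Subgroup.zpow_mem _ (MulAction.mem_stabilizer_iff.2 hk') j
      exact MulAction.mem_stabilizer_iff.1 h3
    · intro hk
      exact hk ⟨β, Subgroup.mem_zpowers β⟩
  rw [h2]
  exact (Nat.ModEq.dvd_iff h1.symm dvd_rfl)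

end Cfsg.Agent.Lib.Helper80.LBP
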