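import Cfsg.Agent.Lib.Helper80.LBP.Defs
import Cfsg.Agent.Lib.Helper67.LBP1

set_option autoImplicit false

/-!
# [P4] rigidity, orthogonal type
-/

namespace Cfsg.Agent.Lib.Helper80.LBP

open Matrix Cfsg.Agent.Lib.Helper43.PA Cfsg.Agent.Lib.Helper44

variable {n : ℕ} {F : Type*} [Field F]

lemma GL_inv_mul (A : GL (Fin n) F) : (A⁻¹ : GL (Fin n) F).1 * A.1 = 1 := by
  rw [← Units.val_mul, inv_mul_cancel]; rfl

lemma GL_mul_inv (A : GL (Fin n) F) : A.1 * (A⁻¹ : GL (Fin n) F).1 = 1 := by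
  rw [← Units.val_mul, mul_inv_cancel]; rfl

lemma inv_transpose_of_symm {A : GL (Fin n) F} (hA : A.1ᵀ = A.1) :
    ((A⁻¹ : GL (Fin n) F).1)ᵀ = (A⁻¹ : GL (Fin n) F).1 := by
  have h1 : ((A⁻¹ : GL (Fin n) F).1)ᵀ * A.1 = 1 := by
    rw [← hA, ← transpose_mul, GL_mul_inv, transpose_one]
  calc ((A⁻¹ : GL (Fin n) F).1)ᵀ = ((A⁻¹ : GL (Fin n) F).1)ᵀ * (A.1 * (A⁻¹ : GL (Fin n) F).1) := by
        rw [GL_mul_inv, Matrix.mul_one]
    _ = (A⁻¹ : GL (Fin n) F).1 := by rw [← Matrix.mul_assoc, h1, Matrix.one_mul]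

/-- fixed points of `conjSL A * invT`. -/
lemma fix_of_isom (A : GL (Fin n) F) (s : SpecialLinearGroup (Fin n) F)
    (h : s.1ᵀ * (A⁻¹ : GL (Fin n) F).1 * s.1 = (A⁻¹ : GL (Fin n) F).1) :
    (conjSL A * invT : MulAut (SpecialLinearGroup (Fin n) F)) s = s := by
  apply SL_ext
  show (conjSL A (invT s)).1 = s.1
  rw [conjSL_coe, invT_apply, SpecialLinearGroup.coe_transpose]
  have h1 : ((s⁻¹).1)ᵀ * s.1ᵀ = 1 := by
    have h0 : s.1 * (s⁻¹).1 = 1 := by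
      have := congrArg Subtype.val (mul_inv_cancel s)
      exact this
    rw [← transpose_mul, h0, transpose_one]
  have h2 : ((s⁻¹).1)ᵀ * (A⁻¹ : GL (Fin n) F).1 = (A⁻¹ : GL (Fin n) F).1 * s.1 := by
    conv_lhs => rw [← h]
    rw [← Matrix.mul_assoc, ← Matrix.mul_assoc, h1, Matrix.one_mul]
  rw [Matrix.mul_assoc, h2, ← Matrix.mul_assoc, GL_mul_inv, Matrix.one_mul]

lemma eq_one_of_noGam [Fintype F] (h2 : (2 : F) ≠ 0) (hn : 3 ≤ n) (A : GL (Fin n) F)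
    (hA : A.1ᵀ = A.1) (h : GL (Fin n) F) (τ : F ≃+* F)
    (ha : ∀ k ∈ LL (conjSL A * invT),
      (cG h * fA τ : MulAut (ProjectiveSpecialLinearGroup (Fin n) F)) k = k) : cG h * fA τ = 1 := by
  have hdet : ((A⁻¹ : GL (Fin n) F).1).det ≠ 0 :=
    ((Matrix.isUnit_iff_isUnit_det _).1 (A⁻¹ : GL (Fin n) F).isUnit).ne_zero
  obtain ⟨h3, c, hc⟩ := Cfsg.Agent.Lib.Helper67.LBP.rigO (RingHom.id F) h2 hn (A⁻¹ : GL (Fin n) F).1 (inv_transpose_of_symm hA)
    hdet h τ (by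
      intro s hs
      have h4 := ha _ (mk_mem_LL (fix_of_isom A s hs))
      rw [MulAut.mul_apply, fA_mk, cG_mk] at h4
      obtain ⟨z, hz⟩ := exists_smul_of_mk_eq h4.symm
      rw [conjSL_coe, fieldSL_coe] at hz
      refine ⟨z, ?_⟩
      have h5 : s.1.map (RingHom.id F) = s.1 := by ext i j; rfl
      rw [h5]
      calc h.1 * s.1.map τ = h.1 * s.1.map τ * ((h⁻¹ : GL (Fin n) F).1 * h.1) := by
            rw [GL_inv_mul, Matrix.mul_one]
        _ = (h.1 * s.1.map τ * (h⁻¹ : GL (Fin n) F).1) * h.1 := by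
            simp only [Matrix.mul_assoc]
        _ = z • (s.1 * h.1) := by rw [hz, Matrix.smul_mul])
  have hτ : τ = 1 := by
    ext x
    exact h3 x
  have hc0 : c ≠ 0 := by
    rintro rfl
    have h7 := h.isUnit
    rw [hc, zero_smul] at h7
    have : Nonempty (Fin n) := ⟨⟨0, by omega⟩⟩
    exact not_isUnit_zero h7
  have hh : h = scGL (Units.mk0 c hc0) := by
    apply Units.ext
    rw [hc, scGL_coe]
    ext i j
    simp [Matrix.scalar_apply, Matrix.diagonal_apply, Matrix.one_apply]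
  rw [hτ, map_one, mul_one, hh, cG_scGL]

theorem hc_O' [Fintype F] (h2 : (2 : F) ≠ 0) (hn : 3 ≤ n) (A : GL (Fin n) F) (hA : A.1ᵀ = A.1)
    (a : MulAut (ProjectiveSpecialLinearGroup (Fin n) F))
    (ha : ∀ k ∈ LL (conjSL A * invT), a k = k) : a ^ 2 = 1 := by
  obtain ⟨r, hr⟩ := CharP.exists F
  have hrp : Fact r.Prime := ⟨CharP.char_is_prime F r⟩
  obtain ⟨f, -, hF⟩ := FiniteField.card F r
  obtain ⟨h, τ, e | e⟩ := aut_three hF f.pos hn a
  · rw [e, eq_one_of_noGam h2 hn A hA h τ (e ▸ ha), one_pow]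
  · have hφ : pslAut (conjSL A * invT) = gr A := by rw [map_mul]; rfl
    have e1 : a * gr A = cG (h * mapGL τ (invTGL A)) * fA τ := by
      rw [e]
      unfold gr
      rw [mul_assoc, ← mul_assoc gam, gam_mul_cG, mul_assoc (cG (invTGL A)), gam_mul_gam, mul_one,
        mul_assoc, fA_mul_cG, ← mul_assoc, map_mul]
    have e2 : a * gr A = 1 := by
      rw [e1]
      apply eq_one_of_noGam h2 hn A hA
      intro k hk
      rw [← e1, MulAut.mul_apply, ← hφ, LL_fix _ k hk, ha k hk]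
    have e3 : gr A ^ 2 = 1 := by
      rw [← orderOf_gr hn (Or.inl hA)]
      exact pow_orderOf_eq_one _
    have e4 : a = (gr A)⁻¹ := eq_inv_of_mul_eq_one_left e2
    rw [e4, inv_pow, e3, inv_one]

end Cfsg.Agent.Lib.Helper80.LBP
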