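import Cfsg.Agent.Lib.Helper80.LBP.P4
import Cfsg.Agent.Lib.Helper44.GraphOdd
import Cfsg.Agent.Lib.Helper12.LBP10
import Cfsg.Agent.Lib.Helper62.LBP5
import Cfsg.Agent.Lib.Helper62.LBP6
import Cfsg.Agent.Lib.Helper91.LBP3
import Cfsg.Agent.Lib.Helper91.LBP8
import Cfsg.Agent.Lib.Helper95.LBP7
import Cfsg.Agent.Lib.Helper95.LBP9

set_option autoImplicit false

/-!
# Local balance for `PSL_n(F)` (row S2686): assembly
-/

namespace Cfsg.Agent.Lib.Helper80.LBP

open Matrix Cfsg.Agent.Lib.Helper43.PA Cfsg.Agent.Lib.Helper44 Cfsg.Agent.Lib.Helper98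

variable {n : ℕ} {F : Type*} [Field F]

local notation "KK" => ProjectiveSpecialLinearGroup (Fin n) F

lemma conj_mk_eq (s : SpecialLinearGroup (Fin n) F) :
    (MulAut.conj (QuotientGroup.mk s : KK)) = cG (SpecialLinearGroup.toGL s) := by
  apply mulAut_psl_ext
  intro x
  rw [cG_mk, MulAut.conj_apply]
  show (QuotientGroup.mk (s * x * s⁻¹) : KK) = _
  congr 1

lemma conj_injective (hn : 1 ≤ n) : Function.Injective (MulAut.conj : KK →* MulAut KK) := by
  rw [injective_iff_map_eq_one]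
  intro k hk
  induction k using QuotientGroup.induction_on with
  | H s =>
    rw [conj_mk_eq] at hk
    have h1 : SpecialLinearGroup.toGL s ∈ (cG : GL (Fin n) F →* _).ker := hk
    rw [ker_cG hn] at h1
    obtain ⟨u, hu⟩ := exists_scGL_of_mem_center h1 hn
    rw [QuotientGroup.eq_one_iff, Matrix.SpecialLinearGroup.mem_center_iff]
    have h2 : s.1 = Matrix.scalar (Fin n) (u : F) := by
      have := congrArg Units.val hu
      rw [scGL_coe] at this
      exact this
    refine ⟨u, ?_, h2.symm⟩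
    have h3 := s.2
    rw [h2] at h3
    simpa using h3

/-- the criterion for a standard automorphism `pslAut θ`. -/
theorem core_std [Finite F] (hn : 1 ≤ n) (θ : MulAut (SpecialLinearGroup (Fin n) F)) (p : ℕ)
    [hp : Fact p.Prime] (hne : LL θ ≠ ⊥)
    (hb : p ∣ Nat.card KK → ∀ M : Subgroup KK, M ≤ LL θ → (∀ l ∈ LL θ, ∀ k ∈ M, l * k * l⁻¹ ∈ M) →
      M ≠ ⊥ → p ∣ Nat.card M)
    (hc : ∀ a : MulAut KK, (∀ k ∈ LL θ, a k = k) → a ^ p = 1)
    (A : Subgroup (MulAut KK)) (hinn : ∀ k, MulAut.conj k ∈ A) :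
    Cfsg.pPrimeCore p ↥(A ⊓ Subgroup.centralizer {pslAut θ}) ≠ ⊥ ↔
      Nat.Coprime p (Nat.card ↥(MonoidHom.eqLocus (pslAut θ).toMonoidHom (MonoidHom.id KK))) := by
  have hfin : Finite KK := inferInstance
  have hpow : (pslAut θ) ^ p = 1 := hc _ (LL_fix θ)
  refine LB.localBalance (conj_injective hn) A hinn p (pslAut θ) (LL θ) (LL_fix θ) (LL_norm θ) ?_
    (fun h => hb ((dvd_card_fix_iff _ hpow).1 h)) hc
  by_contra hcon
  push Not at hcon
  apply hne
  rw [eq_bot_iff]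
  intro k hk
  exact hcon k (LL_fix θ k hk)

lemma LL_ne_bot_of_hc (hn : 1 ≤ n) [Nontrivial KK] (L : Subgroup KK)
    (hc : ∀ a : MulAut KK, (∀ k ∈ L, a k = k) → a ^ 2 = 1) : L ≠ ⊥ := by
  intro hL
  have h1 : ∀ k : KK, k * k = 1 := by
    intro k
    have := hc (MulAut.conj k) (by
      intro l hl
      rw [hL, Subgroup.mem_bot] at hl
      rw [hl, map_one])
    rw [← map_pow, ← map_one (MulAut.conj : KK →* MulAut KK)] at this
    have := conj_injective hn this
    rwa [sq] at this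
  have h2 : ∀ x y : KK, x * y = y * x := by
    intro x y
    have e1 := h1 (x * y)
    have hx : x⁻¹ = x := inv_eq_of_mul_eq_one_left (h1 x)
    have hy : y⁻¹ = y := inv_eq_of_mul_eq_one_left (h1 y)
    have e2 : (x * y)⁻¹ = x * y := inv_eq_of_mul_eq_one_left e1
    rw [← e2, _root_.mul_inv_rev, hx, hy]
  obtain ⟨x, hx⟩ := exists_ne (1 : KK)
  apply hx
  apply conj_injective hn
  rw [map_one]
  ext y
  rw [MulAut.conj_apply, h2 x y, mul_inv_cancel_right]
  rfl

/-- the case `p = 2` for a standard automorphism. -/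
theorem core_two [Finite F] (hn : 1 ≤ n) [Nontrivial KK] (θ : MulAut (SpecialLinearGroup (Fin n) F))
    (hb : ∀ M : Subgroup KK, M ≤ LL θ → (∀ l ∈ LL θ, ∀ k ∈ M, l * k * l⁻¹ ∈ M) →
      M ≠ ⊥ → 2 ∣ Nat.card M)
    (hc : ∀ a : MulAut KK, (∀ k ∈ LL θ, a k = k) → a ^ 2 = 1)
    (A : Subgroup (MulAut KK)) (hinn : ∀ k, MulAut.conj k ∈ A) :
    ¬ Cfsg.pPrimeCore 2 ↥(A ⊓ Subgroup.centralizer {pslAut θ}) ≠ ⊥ ∧
      ¬ Nat.Coprime 2 (Nat.card ↥(MonoidHom.eqLocus (pslAut θ).toMonoidHom (MonoidHom.id KK))) := by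
  have hfin : Finite KK := inferInstance
  have : Fact (Nat.Prime 2) := ⟨Nat.prime_two⟩
  have hne := LL_ne_bot_of_hc hn (LL θ) hc
  have key := core_std hn θ 2 hne (fun _ => hb) hc A hinn
  have h2 : ¬ Nat.Coprime 2
      (Nat.card ↥(MonoidHom.eqLocus (pslAut θ).toMonoidHom (MonoidHom.id KK))) := by
    intro hcop
    have h3 := hb (LL θ) le_rfl (fun l hl k hk => (LL θ).mul_mem ((LL θ).mul_mem hl hk)
      ((LL θ).inv_mem hl)) hne
    have h4 : LL θ ≤ MonoidHom.eqLocus (pslAut θ).toMonoidHom (MonoidHom.id KK) :=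
      fun k hk => LL_fix θ k hk
    have h5 := h3.trans (Subgroup.card_dvd_of_le h4)
    have := Nat.dvd_gcd dvd_rfl h5
    rw [hcop] at this
    omega
  exact ⟨fun h => h2 (key.1 h), h2⟩

lemma inn_map (A : Subgroup (MulAut KK)) (hinn : ∀ k, MulAut.conj k ∈ A) (α : MulAut KK) :
    ∀ k, MulAut.conj k ∈ A.map (MulAut.conj α).toMonoidHom := by
  intro k
  refine ⟨MulAut.conj (α⁻¹ k), hinn _, ?_⟩
  show α * MulAut.conj (α⁻¹ k) * α⁻¹ = MulAut.conj k
  rw [LB.conj_conj]
  simp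

/-- transport of the whole statement (case `p = 2`). -/
lemma two_transport [Finite F] (hn : 1 ≤ n) [Nontrivial KK]
    (θ : MulAut (SpecialLinearGroup (Fin n) F))
    (hb : ∀ M : Subgroup KK, M ≤ LL θ → (∀ l ∈ LL θ, ∀ k ∈ M, l * k * l⁻¹ ∈ M) →
      M ≠ ⊥ → 2 ∣ Nat.card M)
    (hc : ∀ a : MulAut KK, (∀ k ∈ LL θ, a k = k) → a ^ 2 = 1)
    (A : Subgroup (MulAut KK)) (hinn : ∀ k, MulAut.conj k ∈ A) {β α : MulAut KK}
    (e : α * β * α⁻¹ = pslAut θ) :
    ¬ Cfsg.pPrimeCore 2 ↥(A ⊓ Subgroup.centralizer {β}) ≠ ⊥ ∧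
      ¬ Nat.Coprime 2 (Nat.card ↥(MonoidHom.eqLocus β.toMonoidHom (MonoidHom.id KK))) := by
  obtain ⟨t1, t2⟩ := LB.transport A 2 e
  rw [t1, t2]
  exact core_two hn θ hb hc _ (inn_map A hinn α)

lemma sq_form (g : GL (Fin n) F) (σ : F ≃+* F) :
    (cG g * fA σ * gam) ^ 2 = cG (g * mapGL σ (invTGL g)) * fA (σ * σ) := by
  have h1 : (fA σ * gam : MulAut KK) * (fA σ * gam) = fA (σ * σ) := by
    rw [mul_assoc, ← mul_assoc gam, gam_mul_fA, mul_assoc, gam_mul_gam, mul_one, ← map_mul]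
  rw [sq, mul_assoc (cG g), mul_assoc (cG g), ← mul_assoc _ (cG g), gf_mul_cG, mul_assoc, h1,
    map_mul (cG : GL (Fin n) F →* _), mul_assoc]

theorem row (F : Type*) [Field F] [Fintype F] (r : ℕ) [hr : Fact r.Prime] [CharP F r] (n : ℕ)
    (hn : 2 ≤ n) (hK : IsSimpleGroup (ProjectiveSpecialLinearGroup (Fin n) F))
    (𝒢 : Subgroup (MulAut (ProjectiveSpecialLinearGroup (Fin n) F)))
    (hinn : ∀ k : ProjectiveSpecialLinearGroup (Fin n) F, MulAut.conj k ∈ 𝒢)
    (p : ℕ) [hp : Fact p.Prime] (hpr : p ≠ r)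
    (β : MulAut (ProjectiveSpecialLinearGroup (Fin n) F)) (hord : orderOf β = p)
    (hnot : ¬ Cfsg.IsInnerDiagonalAutPSL β) :
    Cfsg.pPrimeCore p ↥(𝒢 ⊓ Subgroup.centralizer {β}) ≠ ⊥ ↔
      ((∃ γ φ : MulAut (ProjectiveSpecialLinearGroup (Fin n) F),
          Cfsg.IsInnerDiagonalAutPSL γ ∧ Cfsg.IsFieldAutPSL φ ∧ β = φ.trans γ) ∧
        Nat.Coprime p (Nat.card ↥(MonoidHom.eqLocus β.toMonoidHom
          (MonoidHom.id (ProjectiveSpecialLinearGroup (Fin n) F))))) := by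
  have hnt : Nontrivial (ProjectiveSpecialLinearGroup (Fin n) F) := hK.toNontrivial
  obtain ⟨f, hF⟩ : ∃ f : ℕ+, Fintype.card F = r ^ (f : ℕ) := by
    obtain ⟨f, -, hf⟩ := FiniteField.card F r
    exact ⟨f, hf⟩
  have hf : 1 ≤ (f : ℕ) := f.pos
  have hpow : β ^ p = 1 := hord ▸ pow_orderOf_eq_one β
  have hpF : (p : F) ≠ 0 := by
    intro h
    rw [CharP.cast_eq_zero_iff F r] at h
    exact hpr ((Nat.prime_dvd_prime_iff_eq hr.out hp.out).1 h).symm
  -- the field case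
  have caseF : ∀ (g : GL (Fin n) F) (σ : F ≃+* F), β = cG g * fA σ →
      (Cfsg.pPrimeCore p ↥(𝒢 ⊓ Subgroup.centralizer {β}) ≠ ⊥ ↔
      ((∃ γ φ : MulAut (ProjectiveSpecialLinearGroup (Fin n) F),
          Cfsg.IsInnerDiagonalAutPSL γ ∧ Cfsg.IsFieldAutPSL φ ∧ β = φ.trans γ) ∧
        Nat.Coprime p (Nat.card ↥(MonoidHom.eqLocus β.toMonoidHom
          (MonoidHom.id (ProjectiveSpecialLinearGroup (Fin n) F)))))) := by
    intro g σ h
    have hσ1 : σ ≠ 1 := by
      rintro rfl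
      apply hnot
      rw [h, map_one, mul_one]
      exact isInnerDiagonal_cG g
    have hσp : σ ^ p = 1 := by
      have h1 := hpow
      rw [h, pow_cG_fA] at h1
      apply fA_mem_range_cG hn
      refine ⟨(nrm σ g p)⁻¹, ?_⟩
      rw [map_inv]
      exact inv_eq_of_mul_eq_one_right h1
    have hoσ : orderOf σ = p := orderOf_eq_prime hσp hσ1
    obtain ⟨k, hk⟩ := field_coset (by omega) σ p hoσ hp.out.pos g (by rw [← h]; exact hpow)
    have e : (cG k)⁻¹ * β * ((cG k)⁻¹)⁻¹ = pslAut (fieldSL σ) := by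
      rw [h, hk]
      show _ = fA σ
      group
    obtain ⟨t1, t2⟩ := LB.transport 𝒢 p e
    have hne : LL (fieldSL σ : MulAut (SpecialLinearGroup (Fin n) F)) ≠ ⊥ := by
      intro hbot
      let i0 : Fin n := ⟨0, by omega⟩
      let i1 : Fin n := ⟨1, by omega⟩
      have h01 : i0 ≠ i1 := by
        intro h; have := congrArg Fin.val h; simp [i0, i1] at this
      have hd : (Pi.single i1 (1 : F) : Fin n → F) ⬝ᵥ Pi.single i0 1 = 0 := by
        rw [single_dotProduct, one_mul, Pi.single_eq_of_ne h01.symm]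
      have hfix : fieldSL σ (tv (Pi.single i0 (1 : F)) (Pi.single i1 1)) =
          tv (Pi.single i0 (1 : F)) (Pi.single i1 1) := by
        apply SL_ext
        rw [fieldSL_coe, tv_coe hd]
        ext a b
        simp only [Matrix.map_apply, Matrix.add_apply, vecMulVec_apply, map_add, map_mul]
        congr 1
        · by_cases hab : a = b
          · subst hab; simp
          · simp [Matrix.one_apply_ne hab]
        · congr 1
          · by_cases ha : a = i0
            · subst ha; simp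
            · simp [Pi.single_eq_of_ne ha]
          · by_cases hb : b = i1
            · subst hb; simp
            · simp [Pi.single_eq_of_ne hb]
      have hmem := mk_mem_LL hfix
      rw [hbot, Subgroup.mem_bot, QuotientGroup.eq_one_iff,
        Matrix.SpecialLinearGroup.mem_center_iff] at hmem
      obtain ⟨c, -, hc⟩ := hmem
      have := congrFun (congrFun hc i0) i1
      rw [tv_coe hd] at this
      simp [Matrix.scalar_apply, Matrix.diagonal_apply_ne _ h01, Matrix.one_apply_ne h01,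
        vecMulVec_apply] at this
    have key := core_std (by omega) (fieldSL σ) p hne
      (fun hpK => Cfsg.Agent.Lib.Helper12.LBP.hb_F hn σ hp.out hoσ hpF hpK) (Cfsg.Agent.Lib.Helper95.LBP.hc_F hn σ hp.out hoσ) _
      (inn_map 𝒢 hinn (cG k)⁻¹)
    rw [t1, t2, key]
    constructor
    · intro hc
      refine ⟨⟨cG g, fA σ, isInnerDiagonal_cG g, ⟨σ, isStdField_fA σ⟩, ?_⟩, hc⟩
      rw [h]; rfl
    · exact fun hc => hc.2
  rcases Nat.lt_or_ge n 3 with hn3 | hn3
  · obtain rfl : n = 2 := by omega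
    obtain ⟨g, σ, h⟩ := aut_two hF hf β
    exact caseF g σ h
  obtain ⟨g, σ, h | h⟩ := aut_three hF hf hn3 β
  · exact caseF g σ h
  -- graph and graph-field type
  have hp2 : p = 2 := by
    rcases hp.out.eq_two_or_odd' with h2 | ⟨m, hm⟩
    · exact h2
    · exfalso
      have h1 := hpow
      rw [hm, pow_succ, pow_mul, h, sq_form, pow_cG_fA] at h1
      apply fA_gam_not_mem_range_cG hn3 ((σ * σ) ^ m * σ)
      have h2 : cG (nrm (σ * σ) (g * mapGL σ (invTGL g)) m) * fA ((σ * σ) ^ m) *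
          (cG g * fA σ * gam) = cG (nrm (σ * σ) (g * mapGL σ (invTGL g)) m *
            mapGL ((σ * σ) ^ m) g) * (fA ((σ * σ) ^ m * σ) * gam) := by
        rw [map_mul, map_mul, mul_assoc (cG _) (fA _), ← mul_assoc (fA _) (cG g * fA σ),
          ← mul_assoc (fA _) (cG g), fA_mul_cG]
        simp only [mul_assoc]
      rw [h2] at h1
      refine ⟨(nrm (σ * σ) (g * mapGL σ (invTGL g)) m * mapGL ((σ * σ) ^ m) g)⁻¹, ?_⟩
      rw [map_inv]
      exact inv_eq_of_mul_eq_one_right h1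
  subst hp2
  have h2F : (2 : F) ≠ 0 := by exact_mod_cast hpF
  have hσ2 : σ * σ = 1 := by
    have h1 := hpow
    rw [h, sq_form] at h1
    apply fA_mem_range_cG hn
    refine ⟨(g * mapGL σ (invTGL g))⁻¹, ?_⟩
    rw [map_inv]
    exact inv_eq_of_mul_eq_one_right h1
  have fin : ¬ Cfsg.pPrimeCore 2 ↥(𝒢 ⊓ Subgroup.centralizer {β}) ≠ ⊥ ∧
      ¬ Nat.Coprime 2 (Nat.card ↥(MonoidHom.eqLocus β.toMonoidHom
        (MonoidHom.id (ProjectiveSpecialLinearGroup (Fin n) F)))) := by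
    by_cases hσ1 : σ = 1
    · subst hσ1
      have hgr : β = gr g := by rw [h, map_one, mul_one]; rfl
      rcases transpose_of_orderOf_gr (by omega) (hgr ▸ hord) with hs | hs
      · refine two_transport (by omega) (conjSL g * invT) (Cfsg.Agent.Lib.Helper91.LBP.hb_O h2F hn3 g hs) (hc_O' h2F hn3 g hs)
          𝒢 hinn (α := 1) ?_
        rw [hgr, one_mul, inv_one, mul_one, map_mul]
        rfl
      · obtain ⟨m, hm⟩ := even_of_alt g (alt_of_skew h2F hs)
        have e : Fin m ⊕ Fin m ≃ Fin n := finSumFinEquiv.trans (finCongr hm.symm)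
        obtain ⟨k, -, hk⟩ := conj_of_skew h2F (by omega) hs (reGL_J_transpose (F := F) e)
        refine two_transport (by omega) (conjSL (reGL e (JGL m F)) * invT)
          (Cfsg.Agent.Lib.Helper91.LBP.hb_S h2F (by omega) e) (Cfsg.Agent.Lib.Helper95.LBP.hc_S h2F (by omega) e) 𝒢 hinn (α := k) ?_
        rw [hgr, ← hk, map_mul]
        rfl
    · obtain ⟨k, hk⟩ := gf_coset (by omega) σ hσ1 hσ2 g (by
        rw [← mul_assoc, ← h]; exact hpow)
      refine two_transport (by omega) (fieldSL σ * invT) (Cfsg.Agent.Lib.Helper62.LBP.hb_U h2F hn3 σ hσ1 hσ2)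
        (Cfsg.Agent.Lib.Helper62.LBP.hc_U h2F hn3 σ hσ1 hσ2) 𝒢 hinn (α := (cG k)⁻¹) ?_
      rw [h, mul_assoc (cG g), hk, map_mul]
      show _ = fA σ * gam
      group
  constructor
  · intro hh; exact absurd hh fin.1
  · intro hh; exact absurd hh.2 fin.2

end Cfsg.Agent.Lib.Helper80.LBP
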