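import Cfsg.Agent.Lib.Helper80.LBP.Gen
import Cfsg.Agent.Lib.Helper43.PU.Coset
import Cfsg.Agent.Lib.Helper43.PU.FacThm
import Cfsg.Agent.Lib.Helper44.GraphPSUTr
import Cfsg.Agent.Lib.Helper95.LBQ1
import Cfsg.Agent.Lib.Helper95.LBQ3p
import Cfsg.Agent.Lib.Helper12.LBQ2
import Cfsg.Agent.Lib.Helper67.LBQ4
import Cfsg.Agent.Lib.Helper67.LBQ5
import Cfsg.Agent.S0282

set_option autoImplicit false

/-!
# Local balance for `PSU_n(q)` (row S2687): assembly
-/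

namespace Cfsg.Agent.Lib.Helper80.LBP

open Matrix Cfsg.Agent.Lib.Helper43.PA Cfsg.Agent.Lib.Helper43.PU Cfsg.Agent.Lib.Helper44
  Cfsg.Agent.Lib.Helper98

/-- if all automorphisms fixing `L` pointwise have `p`-th power one, `L` is not trivial. -/
lemma ne_bot_of_hc_prime {K : Type*} [Group K] [Finite K]
    (hZ : Function.Injective (MulAut.conj : K →* MulAut K)) [Nontrivial K] (p : ℕ)
    [hp : Fact p.Prime]
    (L : Subgroup K) (hc : ∀ a : MulAut K, (∀ k ∈ L, a k = k) → a ^ p = 1) : L ≠ ⊥ := by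
  intro hL
  have h1 : ∀ k : K, k ^ p = 1 := by
    intro k
    have := hc (MulAut.conj k) (by
      intro l hl
      rw [hL, Subgroup.mem_bot] at hl
      rw [hl, map_one])
    rw [← map_pow, ← map_one (MulAut.conj : K →* MulAut K)] at this
    exact hZ this
  have hpg : IsPGroup p K := fun k => ⟨1, by rw [pow_one]; exact h1 k⟩
  have hcen := hpg.center_nontrivial
  obtain ⟨⟨z, hz⟩, hz1⟩ := exists_ne (1 : Subgroup.center K)
  apply hz1
  apply Subtype.ext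
  apply hZ
  show MulAut.conj z = MulAut.conj 1
  rw [map_one]
  ext y
  rw [MulAut.conj_apply, ← (Subgroup.mem_center_iff.1 hz y), mul_inv_cancel_right]
  rfl

theorem rowU (F : Type*) [Field F] [Fintype F] (r : ℕ) [hr : Fact r.Prime] [CharP F r] (q : ℕ)
    (hF : Fintype.card F = q ^ 2)
    (n : ℕ) (hn : 3 ≤ n) (hK : IsSimpleGroup (Cfsg.PSU n F q))
    (𝒢 : Subgroup (MulAut (Cfsg.PSU n F q))) (hinn : ∀ k : Cfsg.PSU n F q, MulAut.conj k ∈ 𝒢)
    (p : ℕ) [hp : Fact p.Prime] (hpr : p ≠ r) (β : MulAut (Cfsg.PSU n F q))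
    (hord : orderOf β = p) (hnot : ¬ Cfsg.IsInnerDiagonalAutPSU β) :
    Cfsg.pPrimeCore p ↥(𝒢 ⊓ Subgroup.centralizer {β}) ≠ ⊥ ↔
      ((∃ γ φ : MulAut (Cfsg.PSU n F q), Cfsg.IsInnerDiagonalAutPSU γ ∧
          (∃ σ : F ≃+* F, Cfsg.IsFieldAutPSUOf σ φ) ∧ β = φ.trans γ) ∧
        Nat.Coprime p (Nat.card ↥(MonoidHom.eqLocus β.toMonoidHom
          (MonoidHom.id (Cfsg.PSU n F q))))) := by
  have hnt : Nontrivial (Cfsg.PSU n F q) := hK.toNontrivial
  have hfinS : Finite (SpecialLinearGroup (Fin n) F) := Subtype.finite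
  have hfin : Finite (Cfsg.PSU n F q) := inferInstance
  have hZ := conj_injective (n := n) hF hn
  obtain ⟨f, hf, hq⟩ : ∃ f : ℕ, 1 ≤ f ∧ q = r ^ f := by
    obtain ⟨k, -, hk⟩ := FiniteField.card F r
    have h1 : q ∣ r ^ (k : ℕ) := by rw [← hk, hF]; exact Dvd.intro_left (q ^ 1) (by ring)
    obtain ⟨j, -, hj⟩ := (Nat.dvd_prime_pow hr.out).1 h1
    refine ⟨j, ?_, hj⟩
    by_contra hj0
    have : j = 0 := by omega
    rw [this, pow_zero] at hj
    rw [hj, one_pow] at hF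
    have := Fintype.one_lt_card (α := F)
    omega
  have hs : ¬ (n = 3 ∧ q = 2) := by
    rintro ⟨rfl, rfl⟩
    obtain ⟨-, hsol⟩ := Cfsg.Agent.S0282.result (F := F) (by rw [hF]; norm_num)
    have hcomm := IsSimpleGroup.comm_iff_isSolvable.2 hsol
    obtain ⟨x, hx⟩ := exists_ne (1 : Cfsg.PSU 3 F 2)
    apply hx
    apply hZ
    rw [map_one]
    ext y
    rw [MulAut.conj_apply, hcomm x y, mul_inv_cancel_right]
    rfl
  have hfac : Fac n F q := fac hq hf hF hn hs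
  have hpow : β ^ p = 1 := hord ▸ pow_orderOf_eq_one β
  have hpF : (p : F) ≠ 0 := by
    intro h
    rw [CharP.cast_eq_zero_iff F r] at h
    exact hpr ((Nat.prime_dvd_prime_iff_eq hr.out hp.out).1 h).symm
  obtain ⟨g, σ, h⟩ := hfac β
  have hfirst : ∃ γ φ : MulAut (Cfsg.PSU n F q), Cfsg.IsInnerDiagonalAutPSU γ ∧
      (∃ σ : F ≃+* F, Cfsg.IsFieldAutPSUOf σ φ) ∧ β = φ.trans γ :=
    ⟨cGU g, fAU σ, isInnerDiagonal_cGU g, ⟨σ, isFieldAut_fAU σ⟩, by rw [h]; rfl⟩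
  have hσ1 : σ ≠ 1 := by
    rintro rfl
    apply hnot
    rw [h, map_one, mul_one]
    exact isInnerDiagonal_cGU g
  have hσp : σ ^ p = 1 := by
    have h1 := hpow
    rw [h, pow_cGU_fAU] at h1
    apply fAU_mem_range_cGU (n := n) hF hn
    refine ⟨(nrmU σ g p)⁻¹, ?_⟩
    rw [map_inv]
    exact inv_eq_of_mul_eq_one_right h1
  have hoσ : orderOf σ = p := orderOf_eq_prime hσp hσ1
  rcases hp.out.eq_two_or_odd' with hp2 | hodd
  · -- `p = 2`
    subst hp2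
    have h2F : (2 : F) ≠ 0 := by exact_mod_cast hpF
    have hσb : σ = barE hF := by
      ext t
      rw [invol_eq_pow hF σ hσ1 (by rw [← sq]; exact hσp) t, barE_apply]
    subst hσb
    have hg : (cGU g * fAU (barE hF)) ^ 2 = 1 := by rw [← h]; exact hpow
    have hφ : ∀ s : ↥(Cfsg.SU n F q), β (QuotientGroup.mk s) =
        QuotientGroup.mk ((conjSU g * fieldSU (barE hF) : MulAut ↥(Cfsg.SU n F q)) s) := by
      intro s
      rw [h]
      rfl
    have fin := core_two_gen hZ β (LLg (conjSU g * fieldSU (barE hF)))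
      (LLg_fix _ β hφ) (LLg_norm _ β hφ) (Cfsg.Agent.Lib.Helper67.LBP.hb_UG_of hF h2F hn g (Cfsg.Agent.Lib.Helper95.LBP.descent hF h2F hn g hg))
      (Cfsg.Agent.Lib.Helper67.LBP.hc_UG_of hF h2F hn hfac g hg
        (Cfsg.Agent.Lib.Helper95.LBP.descent hF h2F hn g hg))
      𝒢 hinn
    constructor
    · intro hh; exact absurd hh fin.1
    · intro hh; exact absurd hh.2 fin.2
  · -- `p` odd
    obtain ⟨k, hk⟩ := field_coset_U hq hf hF σ (by rw [hoσ]; exact hodd) hn g (by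
      rw [hoσ, ← h]; exact hpow)
    have e : (cGU k)⁻¹ * β * ((cGU k)⁻¹)⁻¹ = fAU σ := by
      rw [h, hk]
      group
    obtain ⟨t1, t2⟩ := LB.transport 𝒢 p e
    have hφ : ∀ s : ↥(Cfsg.SU n F q), (fAU σ : MulAut (Cfsg.PSU n F q)) (QuotientGroup.mk s) =
        QuotientGroup.mk ((fieldSU σ : MulAut ↥(Cfsg.SU n F q)) s) := fun s => rfl
    have hc := Cfsg.Agent.Lib.Helper95.LBP.hc_UF hq hf hF hn hfac σ hp.out hoσ hodd
    have key := core_std_gen hZ (fAU σ) (LLg (fieldSU σ)) (LLg_fix _ _ hφ) (LLg_norm _ _ hφ) p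
      (ne_bot_of_hc_prime hZ p _ hc)
      (fun hpK => Cfsg.Agent.Lib.Helper12.LBP.hb_UF hq hf hF hn σ hp.out hoσ hodd hpr hpK) hc _
      (inn_map_gen 𝒢 hinn (cGU k)⁻¹)
    rw [t1, t2, key]
    exact ⟨fun hc => ⟨hfirst, hc⟩, fun hc => hc.2⟩

end Cfsg.Agent.Lib.Helper80.LBP
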